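import Cfsg.Agent.H983.TC.Fin
import Cfsg.Agent.H641.TC6.Tor

/-!
# Two clean tori: from the values to `MidData` (helper221; S2464, S2452, row `G₂(q)`)
-/

set_option autoImplicit false
set_option linter.unusedSectionVars false

open Cfsg Subgroup

namespace Cfsg.Agent.H221.TC

open Cfsg.Agent.Characters Cfsg.Agent.H641.TC6 Cfsg.Agent.H983.TC.Glue

universe u

variable {G : Type u} [Group G] [Finite G]

theorem pow_three_ne {A : Subgroup G} {n : ℕ} (hc : Nat.card A = n) (hn : n.Coprime 3) {a : G} (ha : a ∈ A)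
    (h1 : a ≠ 1) : a ^ 3 ≠ 1 := by
  intro h3
  apply h1
  have h4 : orderOf a ∣ 3 := orderOf_dvd_of_pow_eq_one h3
  have h5 : orderOf a ∣ n := hc ▸ Subgroup.orderOf_dvd_natCard A ha
  have h6 : orderOf a ∣ 1 := by
    have := Nat.dvd_gcd h5 h4
    rwa [hn] at this
  exact orderOf_eq_one_iff.1 (Nat.dvd_one.1 h6)

/-- **`MidData` from the values on the two tori**, the first of order prime to `3`. -/
theorem midData_tor {p : ℕ} (hp : p.Prime) (hG : IsLieTypeChar p G) (hpG : p ∣ Nat.card G) {m n m' n' : ℕ}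
    {A T A' T' : Subgroup G} (D : TorD G m n 6 A T) (D' : TorD G m' n' 6 A' T') (hmn : m ∣ 3 * n)
    (h3 : ¬ 3 ∣ m) (hn : n.Coprime 3) (hn' : n'.Coprime 3) (h49 : 49 < m) (hne : m ≠ m')
    (hpm : ¬ p ∣ m) (hpm' : ¬ p ∣ m')
    (hV : ∀ χ : IrrCharacter G, ∀ y ∈ T', y ^ 3 ≠ 1 → (χ : G → ℂ) y ≠ 0 →
      ∃ b : ℤ, |b| ≤ 2 ∧ ∀ a ∈ A, a ≠ 1 → (χ : G → ℂ) a = b)
    (hV' : ∀ χ : IrrCharacter G, ∀ y ∈ T, y ^ 3 ≠ 1 → (χ : G → ℂ) y ≠ 0 →
      ∃ b : ℤ, |b| ≤ 2 ∧ ∀ a ∈ A', a ≠ 1 → (χ : G → ℂ) a = b)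
    {x y : G} (hx : x ∈ A) (hy : y ∈ A') (hx1 : x ≠ 1) (hy1 : y ≠ 1) : MidData x y n n' := by
  -- `A = T`
  have hAT : A = T := by
    refine Subgroup.eq_of_le_of_card_ge D.le ?_
    rw [D.cardA, D.cardT]
    have h4 : m ∣ n := (Nat.Coprime.dvd_of_dvd_mul_left
      (((Nat.Prime.coprime_iff_not_dvd Nat.prime_three).2 h3).symm) hmn)
    have hn0 : 0 < n := by rw [← D.cardA]; exact Nat.card_pos
    exact Nat.le_of_dvd hn0 h4
  have hcx := D.cent x hx hx1
  have hcy := D'.cent y hy hy1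
  have hw : T.relIndex (normalizer (T : Set G)) = 6 := by
    have h4 : Nat.card (T.subgroupOf (normalizer (T : Set G))) = Nat.card T :=
      Nat.card_congr (Subgroup.subgroupOfEquivOfLe le_normalizer).toEquiv
    have h5 := Subgroup.index_mul_card (T.subgroupOf (normalizer (T : Set G)))
    rw [h4, ← D.normA, D.cardN, D.cardT] at h5
    have hm0 : 0 < m := by rw [← D.cardT]; exact Nat.card_pos
    have h6 : T.relIndex (normalizer (T : Set G)) * m = 6 * m := by
      rw [← D.normA]; exact h5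
    exact Nat.eq_of_mul_eq_mul_right hm0 h6
  refine midData_of hp hG hpG (T := T) (fun a ha b hb => comm_of_cyc D.cycT ha hb)
    (fun a ha ha1 => (D.cent a (hAT ▸ ha) ha1).le) hw (by rw [D.cardT]; exact h49) (D.le hx) hx1
    (by rw [hcx, D.cardT]; exact hpm) (by rw [hcy, D'.cardT]; exact hpm') ?_ ?_
  · intro hcj
    apply hne
    rw [← D.cardT, ← D'.cardT, ← hcx, ← hcy]
    obtain ⟨g, hg⟩ := isConj_iff.1 hcj
    have h4 : (centralizer ({x} : Set G)).map (MulAut.conj g).toMonoidHom = centralizer ({y} : Set G) := by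
      ext z
      rw [Subgroup.mem_map, mem_centralizer_singleton_iff]
      constructor
      · rintro ⟨c, hc, rfl⟩
        rw [mem_centralizer_singleton_iff] at hc
        show g * c * g⁻¹ * y = y * (g * c * g⁻¹)
        rw [← hg]
        calc g * c * g⁻¹ * (g * x * g⁻¹) = g * (c * x) * g⁻¹ := by group
          _ = g * (x * c) * g⁻¹ := by rw [hc]
          _ = g * x * g⁻¹ * (g * c * g⁻¹) := by group
      · intro hz
        refine ⟨g⁻¹ * z * g, ?_, ?_⟩
        · rw [mem_centralizer_singleton_iff]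
          rw [← hg] at hz
          calc g⁻¹ * z * g * x = g⁻¹ * (z * (g * x * g⁻¹)) * g := by group
            _ = g⁻¹ * (g * x * g⁻¹ * z) * g := by rw [hz]
            _ = x * (g⁻¹ * z * g) := by group
        · show g * (g⁻¹ * z * g) * g⁻¹ = z
          group
    rw [← h4, Subgroup.card_map_of_injective (MulAut.conj g).injective]
  · intro χ hχ1 hχx hχy
    obtain ⟨b, hb, hb'⟩ := hV χ y (D'.le hy) (pow_three_ne D'.cardA hn' hy hy1) hχy
    obtain ⟨c, hc, hc'⟩ := hV' χ x (D.le hx) (pow_three_ne D.cardA hn hx hx1) hχx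
    have hdeg : (χ : G → ℂ) 1 = ((charDegree (χ : G → ℂ) : ℤ) : ℂ) := by
      rw [← H686.CharKit.charDegree_irr χ]; norm_cast
    refine ⟨b, c, fun t ht ht1 => hb' t (hAT ▸ ht) ht1, hc' y hy hy1, hc, ?_, ?_⟩
    · have := deg_mod (Core.isIrr_isCharacter χ.2) hb' hdeg
      rwa [D.cardA] at this
    · have := deg_mod (Core.isIrr_isCharacter χ.2) hc' hdeg
      rwa [D'.cardA] at this

end Cfsg.Agent.H221.TC
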