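import Cfsg.Agent.H221.TC.Sum

/-!
# Clean tori: the number of characters nonconstant on `A - 1` (helper221; S2464, S2452)
-/

set_option autoImplicit false
set_option linter.unusedSectionVars false
set_option linter.style.haveILetI false

open Cfsg Subgroup
open scoped ComplexConjugate

namespace Cfsg.Agent.H221.TC

open Cfsg.Agent.Characters.Core

universe u

variable {G : Type u} [Group G] {A T : Subgroup G} {m : ℕ}

theorem inFam_comp [Finite G] (h : Tor A T m)
    (hE : ∀ e ∈ T, e ^ m = 1 → ∀ x ∈ normalizer (T : Set G), x * e = e * x)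
    {g l : T →* ℂˣ} (hl : InFam A m g l) (x : normalizer (T : Set G)) : InFam A m g (l.comp (cj x)) := by
  refine ⟨nt_comp h hl.1 x, fun t ht => ?_⟩
  have h1 : cj x t = t := by
    ext
    rw [cj_apply]
    have h2 := hE t t.2 (by rw [← Subgroup.coe_pow, ht]; rfl) x x.2
    rw [mul_assoc, ← h2, ← mul_assoc, inv_mul_cancel, one_mul]
  rw [MonoidHom.comp_apply, h1, hl.2 t ht]

/-- the conjugacy classes on a family have length `|N(T) : T|` -/
theorem card_fam_ge' [Finite G] (h : Tor A T m)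
    (hE : ∀ e ∈ T, e ^ m = 1 → ∀ x ∈ normalizer (T : Set G), x * e = e * x)
    {g : T →* ℂˣ} {n : ℕ} {rep : Fin n → (T →* ℂˣ)} (hrep : ∀ i, InFam A m g (rep i))
    (hdis : ∀ i j, i ≠ j → ∀ x : normalizer (T : Set G), (rep j).comp (cj x) ≠ rep i) :
    n * T.relIndex (normalizer (T : Set G)) ≤ Nat.card {l : T →* ℂˣ // InFam A m g l} := by
  classical
  have := Fintype.ofFinite G
  have : Finite (T →* ℂˣ) := finite_hom
  let N := normalizer (T : Set G)
  let f : Fin n × (N ⧸ T.subgroupOf N) → {l : T →* ℂˣ // InFam A m g l} := fun p =>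
    ⟨(rep p.1).comp (cj (Quotient.out p.2)), inFam_comp h hE (hrep p.1) _⟩
  have hinj : Function.Injective f := by
    rintro ⟨i, p⟩ ⟨j, q⟩ hpq
    have h1 : (rep i).comp (cj (Quotient.out p)) = (rep j).comp (cj (Quotient.out q)) := congrArg Subtype.val hpq
    have h2 : rep i = (rep j).comp (cj ((Quotient.out p)⁻¹ * Quotient.out q)) := by
      have h3 := congrArg (fun l : T →* ℂˣ => l.comp (cj (Quotient.out p)⁻¹)) h1
      beta_reduce at h3
      rw [MonoidHom.comp_assoc, MonoidHom.comp_assoc, ← cj_mul, ← cj_mul, inv_mul_cancel, cj_one,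
        MonoidHom.comp_id] at h3
      exact h3
    have hij : i = j := by
      by_contra hc
      exact hdis i j hc _ h2.symm
    subst hij
    have h3 := mem_of_fix h (hrep i).1 h2.symm
    have h4 : p = q := by
      rw [← Quotient.out_eq p, ← Quotient.out_eq q]
      refine QuotientGroup.eq.2 ?_
      rw [mem_subgroupOf]
      exact h3
    rw [h4]
  have h1 := Nat.card_le_card_of_injective f hinj
  rwa [Nat.card_prod, Nat.card_fin] at h1

theorem relIndex_mul (h : Tor A T m) : A.relIndex T * Nat.card A = Nat.card T := by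
  have h2 : Nat.card (A.subgroupOf T) = Nat.card A := Nat.card_congr (Subgroup.subgroupOfEquivOfLe h.le).toEquiv
  rw [← h2]
  exact Subgroup.index_mul_card (A.subgroupOf T)

/-- the number of linear characters trivial on `A` -/
theorem card_triv_ge [Finite G] (h : Tor A T m) : A.relIndex T ≤ Nat.card {l : T →* ℂˣ // ¬ Nt A l} := by
  classical
  have : Finite (T →* ℂˣ) := finite_hom
  letI : CommGroup T := { (inferInstance : Group T) with mul_comm := fun a b => Subtype.ext (h.comm _ a.2 _ b.2) }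
  let B : Subgroup T := A.subgroupOf T
  have hcard : Nat.card ((T ⧸ B) →* ℂˣ) = Nat.card (T ⧸ B) := CommGroup.card_monoidHom_of_hasEnoughRootsOfUnity _ ℂ
  have h1 : A.relIndex T = Nat.card ((T ⧸ B) →* ℂˣ) := by
    rw [hcard]; rfl
  rw [h1]
  refine Nat.card_le_card_of_injective (fun α : (T ⧸ B) →* ℂˣ =>
    (⟨α.comp (QuotientGroup.mk' B), ?_⟩ : {l : T →* ℂˣ // ¬ Nt A l})) ?_
  · rintro ⟨a, haA, ha⟩
    apply ha
    rw [MonoidHom.comp_apply]
    have h2 : QuotientGroup.mk' B a = 1 := by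
      rw [QuotientGroup.mk'_apply, QuotientGroup.eq_one_iff]
      exact mem_subgroupOf.2 haA
    rw [h2, map_one]
  · intro α β hαβ
    have h2 : α.comp (QuotientGroup.mk' B) = β.comp (QuotientGroup.mk' B) := congrArg Subtype.val hαβ
    refine MonoidHom.ext fun q => ?_
    obtain ⟨t, rfl⟩ := QuotientGroup.mk'_surjective B q
    exact DFunLike.congr_fun h2 t

/-- the families, indexed by the linear characters trivial on `A` -/
theorem exists_fam' [Fintype G] (h : Tor A T m) (hA : 1 < Nat.card A) (g : T →* ℂˣ) :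
    ∃ (n : ℕ) (rep : Fin n → (T →* ℂˣ)) (ε : ℂ) (μ : Fin n → (G → ℂ)), (ε = 1 ∨ ε = -1) ∧
      (∀ i, IsIrrCharacter G (μ i)) ∧ Function.Injective μ ∧ (∀ i, InFam A m g (rep i)) ∧
      (∀ i j, i ≠ j → ∀ x : normalizer (T : Set G), (rep j).comp (cj x) ≠ rep i) ∧
      (∀ l, InFam A m g l → ∃ i, ∃ x : normalizer (T : Set G), l = (rep i).comp (cj x)) ∧
      (∀ i j, indFun T (lf (rep i) - lf (rep j)) = ε • (μ i - μ j)) := by
  classical
  have : Finite (T →* ℂˣ) := finite_hom
  obtain ⟨l₀, hl₀⟩ : ∃ l₀ : T →* ℂˣ, InFam A m g l₀ := by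
    have h1 := card_fam_ge h g
    have h2 : 0 < Nat.card {l : T →* ℂˣ // InFam A m g l} := by omega
    obtain ⟨l⟩ := (Nat.card_pos_iff.1 h2).1
    exact ⟨l.1, l.2⟩
  have hiff : ∀ l : T →* ℂˣ, InFam A m l₀ l ↔ InFam A m g l := fun l =>
    ⟨fun hl => ⟨hl.1, fun t ht => (hl.2 t ht).trans (hl₀.2 t ht)⟩,
      fun hl => ⟨hl.1, fun t ht => (hl.2 t ht).trans (hl₀.2 t ht).symm⟩⟩
  obtain ⟨n, rep, ε, μ, hε, hμ, hinj, hrep, hdis, hcov, hτ⟩ := exists_fam h hl₀.1
  exact ⟨n, rep, ε, μ, hε, hμ, hinj, fun i => (hiff _).1 (hrep i), hdis, fun l hl => hcov l ((hiff l).2 hl), hτ⟩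

section Const

variable [Fintype G] [Fintype T] [Fintype (T →* ℂˣ)]

/-- irreducible characters outside all families are constant integers on `A - 1` -/
theorem const_of (h : Tor A T m) {n : (T →* ℂˣ) → ℕ} {rep : ∀ g, Fin (n g) → (T →* ℂˣ)}
    {ε : (T →* ℂˣ) → ℂ} {μ : ∀ g, Fin (n g) → (G → ℂ)}
    (hμ : ∀ g i, IsIrrCharacter G (μ g i))
    (hrep : ∀ g i, InFam A m g (rep g i))
    (hcov : ∀ g l, InFam A m g l → ∃ i, ∃ x : normalizer (T : Set G), l = (rep g i).comp (cj x))
    (hne : ∀ g, 0 < n g)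
    (hτ : ∀ g i j, indFun T (lf (rep g i) - lf (rep g j)) = ε g • (μ g i - μ g j))
    (χ : IrrCharacter G) (hχ : ∀ g, ¬ Nt A g → ¬ ∃ i, (χ : G → ℂ) = μ g i) :
    ∃ c : ℤ, ∀ a ∈ A, a ≠ 1 → (χ : G → ℂ) a = c := by
  classical
  choose aN haN using fun (χ : IrrCharacter G) (l : T →* ℂˣ) => exists_mult (T := T) χ l
  have hinner : ∀ (χ : IrrCharacter G) (g) (i j : Fin (n g)),
      classInner (indFun T (lf (rep g i) - lf (rep g j))) (χ : G → ℂ) = (aN χ (rep g i) : ℂ) - aN χ (rep g j) := by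
    intro χ g i j
    rw [S0146.result T _ _ (isIrr_isClassFunction χ.2), classInner_sub_left, ← classInner_conj_symm, haN,
      ← classInner_conj_symm (fun t : T => (χ : G → ℂ) t), haN, Complex.conj_natCast, Complex.conj_natCast]
  have heq : ∀ g, ¬ Nt A g → ∀ i j, aN χ (rep g i) = aN χ (rep g j) := by
    intro g hg i j
    have h1 := hinner χ g i j
    rw [hτ g i j, classInner_smul_left, classInner_sub_left, classInner_irr_ne (hμ g i) χ.2 fun h => hχ g hg ⟨i, h.symm⟩,
      classInner_irr_ne (hμ g j) χ.2 fun h => hχ g hg ⟨j, h.symm⟩] at h1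
    have h2 : (aN χ (rep g i) : ℂ) = aN χ (rep g j) := by linear_combination -h1
    exact_mod_cast h2
  have hcomp : ∀ (l : T →* ℂˣ) (x : normalizer (T : Set G)), aN χ (l.comp (cj x)) = aN χ l := by
    intro l x
    have h1 : (aN χ (l.comp (cj x)) : ℂ) = aN χ l := by
      rw [← haN, ← haN, classInner_def, classInner_def]
      congr 1
      refine Fintype.sum_bijective (cj x) ?_ _ _ fun t => ?_
      · refine ⟨fun a b hab' => ?_, fun a => ⟨cj x⁻¹ a, ?_⟩⟩
        · have h2 := congrArg (cj x⁻¹) hab'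
          have h3 : ∀ b : T, cj x⁻¹ (cj x b) = b := fun b => by
            have := DFunLike.congr_fun (cj_mul x x⁻¹) b
            rw [mul_inv_cancel, cj_one] at this
            exact this.symm
          rwa [h3, h3] at h2
        · have := DFunLike.congr_fun (cj_mul x⁻¹ x) a
          rw [inv_mul_cancel, cj_one] at this
          exact this.symm
      · have h2 : (χ : G → ℂ) (t : G) = (χ : G → ℂ) ((cj x t : T) : G) := by
          rw [cj_apply]
          have := isIrr_isClassFunction χ.2 (t : G) (x : G)⁻¹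
          rw [inv_inv] at this
          exact this.symm
        show (χ : G → ℂ) t * conj (lf (l.comp (cj x)) t) = (χ : G → ℂ) ((cj x t : T) : G) * conj (lf l (cj x t))
        rw [← h2]; rfl
    exact_mod_cast h1
  have hF : ∀ l l' : T →* ℂˣ, Nt A l → Nt A l' → SameE m l l' →
      classInner (fun t : T => (χ : G → ℂ) t) (lf l) = classInner (fun t : T => (χ : G → ℂ) t) (lf l') := by
    intro l l' hl hl' hs
    obtain ⟨g, hg, hgn⟩ := exists_gam h l
    obtain ⟨i, x, hi⟩ := hcov g l ⟨hl, fun t ht => (hg t ht).symm⟩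
    obtain ⟨j, y, hj⟩ := hcov g l' ⟨hl', fun t ht => ((hs t ht).symm).trans (hg t ht).symm⟩
    rw [haN, haN, hi, hj, hcomp, hcomp, heq g hgn i j]
  refine ⟨∑ g : T →* ℂˣ, if Nt A g then 0 else (aN χ g : ℤ) - aN χ (rep g ⟨0, hne g⟩), fun a ha ha1 => ?_⟩
  have hat : (⟨a, h.le ha⟩ : T) ^ m ≠ 1 := by
    intro h1
    apply ha1
    have h2 : a ^ m = 1 := by
      have := congrArg (Subtype.val : T → G) h1
      simpa using this
    have h3 : orderOf a ∣ m := orderOf_dvd_of_pow_eq_one h2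
    have h4 : orderOf a ∣ Nat.card A := Subgroup.orderOf_dvd_natCard A ha
    have h5 : orderOf a ∣ 1 := by
      have := Nat.dvd_gcd h3 h4
      rwa [h.cop] at this
    exact orderOf_eq_one_iff.1 (Nat.dvd_one.1 h5)
  have h1 := value h hF (sel := fun g => rep g ⟨0, hne g⟩) (fun g _ => hrep g _) hat
  have h2 : (χ : G → ℂ) a = _ := h1
  rw [h2, Int.cast_sum]
  refine Finset.sum_congr rfl fun g _ => ?_
  by_cases hg : Nt A g
  · rw [if_pos hg, if_pos hg, Int.cast_zero]
  · rw [if_neg hg, if_neg hg, haN, haN]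
    have h3 : g ⟨a, h.le ha⟩ = 1 := by
      by_contra hc
      exact hg ⟨_, ha, hc⟩
    rw [h3]
    push_cast
    ring

end Const

/-- **The nonconstant characters.** `w` times their number is at most `|T| - |T : A|`. -/
theorem card_nonconst' [Finite G] (h : Tor A T m)
    (hE : ∀ e ∈ T, e ^ m = 1 → ∀ x ∈ normalizer (T : Set G), x * e = e * x) :
    T.relIndex (normalizer (T : Set G)) *
      Nat.card {χ : IrrCharacter G // ¬ ∃ c : ℤ, ∀ a ∈ A, a ≠ 1 → (χ : G → ℂ) a = c} + A.relIndex T ≤ Nat.card T := by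
  classical
  have := Fintype.ofFinite G
  have : Fintype T := Fintype.ofFinite _
  have : Finite (T →* ℂˣ) := finite_hom
  have : Fintype (T →* ℂˣ) := Fintype.ofFinite _
  have : Finite (IrrCharacter G) := finite_irr
  have hidx : A.relIndex T ≤ Nat.card T := by
    have h1 := relIndex_mul h
    have h2 : 0 < Nat.card A := Nat.card_pos
    rw [← h1]
    exact Nat.le_mul_of_pos_right _ h2
  by_cases hA : 1 < Nat.card A
  swap
  · have h1 : Nat.card {χ : IrrCharacter G // ¬ ∃ c : ℤ, ∀ a ∈ A, a ≠ 1 → (χ : G → ℂ) a = c} = 0 := by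
      have : IsEmpty {χ : IrrCharacter G // ¬ ∃ c : ℤ, ∀ a ∈ A, a ≠ 1 → (χ : G → ℂ) a = c} := by
        refine ⟨fun χ => χ.2 ⟨0, fun a ha ha1 => ?_⟩⟩
        exfalso
        apply hA
        have : Nontrivial A := ⟨⟨a, ha⟩, 1, fun h2 => ha1 (congrArg Subtype.val h2)⟩
        exact Finite.one_lt_card
      exact Nat.card_of_isEmpty
    rw [h1, mul_zero, zero_add]
    exact hidx
  choose n rep ε μ hε hμ hinj hrep hdis hcov hτ using fun g : T →* ℂˣ => exists_fam' h hA g
  have hne : ∀ g, 0 < n g := by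
    intro g
    by_contra hc
    have h1 := card_fam_ge h g
    have h2 : 0 < Nat.card {l : T →* ℂˣ // InFam A m g l} := by omega
    obtain ⟨l⟩ := (Nat.card_pos_iff.1 h2).1
    obtain ⟨i, -⟩ := hcov g l.1 l.2
    exact absurd i.2 (by omega)
  -- the nonconstant characters are members
  have hmem : ∀ χ : {χ : IrrCharacter G // ¬ ∃ c : ℤ, ∀ a ∈ A, a ≠ 1 → (χ : G → ℂ) a = c},
      ∃ p : Σ g : {g : T →* ℂˣ // ¬ Nt A g}, Fin (n g.1), (χ.1 : G → ℂ) = μ p.1.1 p.2 := by
    intro χ
    by_contra hc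
    push Not at hc
    refine χ.2 (const_of h (n := n) (rep := rep) (ε := ε) (μ := μ) hμ hrep hcov hne hτ χ.1 ?_)
    rintro g hg ⟨i, hi⟩
    exact hc ⟨⟨g, hg⟩, i⟩ hi
  choose F hF using hmem
  have hFinj : Function.Injective F := by
    intro χ χ' hχ
    apply Subtype.ext
    apply Subtype.ext
    rw [hF χ, hF χ', hχ]
  have h1 : Nat.card {χ : IrrCharacter G // ¬ ∃ c : ℤ, ∀ a ∈ A, a ≠ 1 → (χ : G → ℂ) a = c} ≤
      ∑ g : {g : T →* ℂˣ // ¬ Nt A g}, n g.1 := by
    have h2 := Nat.card_le_card_of_injective F hFinj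
    rw [Nat.card_sigma] at h2
    simpa using h2
  have h2 : (∑ g : {g : T →* ℂˣ // ¬ Nt A g}, n g.1) * T.relIndex (normalizer (T : Set G)) ≤
      ∑ g : {g : T →* ℂˣ // ¬ Nt A g}, Nat.card {l : T →* ℂˣ // InFam A m g.1 l} := by
    rw [Finset.sum_mul]
    exact Finset.sum_le_sum fun g _ => card_fam_ge' h hE (hrep g.1) (hdis g.1)
  have h3 : ∑ g : {g : T →* ℂˣ // ¬ Nt A g}, Nat.card {l : T →* ℂˣ // InFam A m g.1 l} ≤
      Nat.card {l : T →* ℂˣ // Nt A l} := by
    have h4 : Function.Injective (fun p : Σ g : {g : T →* ℂˣ // ¬ Nt A g}, {l : T →* ℂˣ // InFam A m g.1 l} =>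
        (⟨p.2.1, p.2.2.1⟩ : {l : T →* ℂˣ // Nt A l})) := by
      rintro ⟨g, l⟩ ⟨g', l'⟩ hll
      have h5 : l.1 = l'.1 := congrArg Subtype.val hll
      have h6 : g = g' := by
        apply Subtype.ext
        refine eq_of_same h g.2 g'.2 fun t ht => ?_
        rw [← l.2.2 t ht, h5, l'.2.2 t ht]
      subst h6
      have h7 : l = l' := Subtype.ext h5
      rw [h7]
    have h5 := Nat.card_le_card_of_injective _ h4
    rwa [Nat.card_sigma] at h5
  have h4 : Nat.card {l : T →* ℂˣ // Nt A l} + Nat.card {l : T →* ℂˣ // ¬ Nt A l} = Nat.card T := by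
    rw [← card_hom h, Nat.card_eq_fintype_card, Nat.card_eq_fintype_card, Nat.card_eq_fintype_card,
      Fintype.card_subtype_compl]
    have := Fintype.card_subtype_le (Nt (T := T) A)
    omega
  have h5 := card_triv_ge h
  have h6 : T.relIndex (normalizer (T : Set G)) *
      Nat.card {χ : IrrCharacter G // ¬ ∃ c : ℤ, ∀ a ∈ A, a ≠ 1 → (χ : G → ℂ) a = c} ≤
      (∑ g : {g : T →* ℂˣ // ¬ Nt A g}, n g.1) * T.relIndex (normalizer (T : Set G)) := by
    rw [mul_comm]
    exact Nat.mul_le_mul_right _ h1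
  omega

/-- **The nonconstant characters**, for `|T| = m |A|`. -/
theorem card_nonconst [Finite G] (h : Tor A T m)
    (hE : ∀ e ∈ T, e ^ m = 1 → ∀ x ∈ normalizer (T : Set G), x * e = e * x)
    (hm : Nat.card T = m * Nat.card A) {w : ℕ} (hw : T.relIndex (normalizer (T : Set G)) = w) :
    w * Nat.card {χ : IrrCharacter G // ¬ ∃ c : ℤ, ∀ a ∈ A, a ≠ 1 → (χ : G → ℂ) a = c} ≤ Nat.card T - m := by
  have h1 := card_nonconst' h hE
  have h2 : A.relIndex T = m := by
    have h3 := relIndex_mul h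
    rw [hm] at h3
    exact Nat.eq_of_mul_eq_mul_right Nat.card_pos h3
  rw [hw, h2] at h1
  omega

/-- the family of a nonconstant character: its members agree outside the conjugates of `{t ∈ T : t ^ m ≠ 1}` -/
theorem fam_of_nonconst [Finite G] (h : Tor A T m) {w : ℕ} (hw : T.relIndex (normalizer (T : Set G)) = w)
    (χ : IrrCharacter G) (hχ : ¬ ∃ c : ℤ, ∀ a ∈ A, a ≠ 1 → (χ : G → ℂ) a = c) :
    ∃ (n : ℕ) (M : Fin n → IrrCharacter G), Function.Injective M ∧ Nat.card A ≤ n * w + 1 ∧ (∃ i, M i = χ) ∧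
      ∀ i j, ∀ g : G, (∀ x : G, ∀ t ∈ T, t ^ m ≠ 1 → g ≠ x * t * x⁻¹) → (M i : G → ℂ) g = (M j : G → ℂ) g := by
  classical
  have := Fintype.ofFinite G
  have : Fintype T := Fintype.ofFinite _
  have : Finite (T →* ℂˣ) := finite_hom
  have : Fintype (T →* ℂˣ) := Fintype.ofFinite _
  by_cases hA : 1 < Nat.card A
  swap
  · exfalso
    refine hχ ⟨0, fun a ha ha1 => ?_⟩
    exfalso
    apply hA
    have : Nontrivial A := ⟨⟨a, ha⟩, 1, fun h2 => ha1 (congrArg Subtype.val h2)⟩
    exact Finite.one_lt_card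
  choose n rep ε μ hε hμ hinj hrep hdis hcov hτ using fun g : T →* ℂˣ => exists_fam' h hA g
  have hne : ∀ g, 0 < n g := by
    intro g
    by_contra hc
    have h1 := card_fam_ge h g
    have h2 : 0 < Nat.card {l : T →* ℂˣ // InFam A m g l} := by omega
    obtain ⟨l⟩ := (Nat.card_pos_iff.1 h2).1
    obtain ⟨i, -⟩ := hcov g l.1 l.2
    exact absurd i.2 (by omega)
  obtain ⟨g, i, hi⟩ : ∃ g, ∃ i, (χ : G → ℂ) = μ g i := by
    by_contra hc
    push Not at hc
    refine hχ (const_of h (n := n) (rep := rep) (ε := ε) (μ := μ) hμ hrep hcov hne hτ χ ?_)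
    rintro g hg ⟨i, hi⟩
    exact hc g i hi
  refine ⟨n g, fun i => ⟨μ g i, hμ g i⟩, fun i j hij => hinj g (congrArg Subtype.val hij), ?_,
    ⟨i, Subtype.ext hi.symm⟩, ?_⟩
  · have h1 := card_fam_le h (hcov g)
    have h2 := card_fam_ge h g
    rw [hw] at h1
    omega
  · intro i j y hy
    have h1 := congrFun (hτ g i j) y
    have h2 : indFun T (lf (rep g i) - lf (rep g j)) y = 0 := by
      rw [indFun_apply]
      refine mul_eq_zero_of_right _ (Finset.sum_eq_zero fun x _ => ?_)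
      by_cases hx : x⁻¹ * y * x ∈ T
      · have h3 : (x⁻¹ * y * x) ^ m = 1 := by
          by_contra h4
          exact hy x _ hx h4 (by group)
        rw [extendByZero_of_mem T _ hx]
        have h4 : (⟨x⁻¹ * y * x, hx⟩ : T) ^ m = 1 := Subtype.ext (by rw [Subgroup.coe_pow]; exact h3)
        rw [Pi.sub_apply, lf_apply, lf_apply, (hrep g i).2 _ h4, (hrep g j).2 _ h4, sub_self]
      · exact extendByZero_of_notMem T _ hx
    rw [h2, Pi.smul_apply, Pi.sub_apply, smul_eq_mul] at h1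
    have h5 : μ g i y - μ g j y = 0 := by
      rcases hε g with h6 | h6 <;> rw [h6] at h1
      · linear_combination -h1
      · linear_combination h1
    exact sub_eq_zero.1 h5

end Cfsg.Agent.H221.TC
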